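import Cfsg.Agent.H71.MtDef

/-!
# S4351 (Martineau), piece P10: the group theoretic assembly
-/

set_option autoImplicit false
set_option linter.all false

namespace Cfsg.Agent.H46.MtP10

open Cfsg.Agent.H71.Mt

universe u v

/-- elements of odd order lift to elements of odd order -/
theorem exists_lift {G : Type u} {X : Type v} [Group G] [Finite G] [Group X] {φ : G →* X}
    (hφ : Function.Surjective φ) {x : X} (hx : Odd (orderOf x)) :
    ∃ g : G, φ g = x ∧ Odd (orderOf g) := by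
  obtain ⟨g0, rfl⟩ := hφ x
  obtain ⟨a, m, hm, hn⟩ := Nat.exists_eq_two_pow_mul_odd (orderOf_pos g0).ne'
  have hco : (2 ^ a).Coprime m := Nat.Coprime.pow_left a (Nat.coprime_two_left.2 hm)
  obtain ⟨e, he1, he2⟩ := Nat.chineseRemainder hco 0 1
  have hxm : orderOf (φ g0) ∣ m := by
    have h1 : orderOf (φ g0) ∣ 2 ^ a * m := hn ▸ orderOf_map_dvd φ g0
    exact (Nat.Coprime.pow_right a (Nat.coprime_two_right.2 hx)).dvd_of_dvd_mul_left h1
  have he0 : 2 ^ a ∣ e := (Nat.modEq_zero_iff_dvd).1 he1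
  refine ⟨g0 ^ e, ?_, ?_⟩
  · rw [map_pow]
    have h1 : e ≡ 1 [MOD orderOf (φ g0)] := Nat.ModEq.of_dvd hxm he2
    have h2 := pow_eq_pow_iff_modEq.2 h1
    rw [pow_one] at h2
    exact h2
  · have h1 : orderOf (g0 ^ e) ∣ m := by
      apply orderOf_dvd_of_pow_eq_one
      obtain ⟨d, rfl⟩ := he0
      rw [← pow_mul]
      have : 2 ^ a * d * m = orderOf g0 * d := by rw [hn]; ring
      rw [this, pow_mul, pow_orderOf_eq_one, one_pow]
    exact Odd.of_dvd_nat hm h1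

theorem comm_inj {G : Type u} [Group G] {Q : Subgroup G} {g : G} (hg : ∀ x ∈ Q, g * x = x * g → x = 1)
    {y z : G} (hy : y ∈ Q) (hz : z ∈ Q) (h : g * y * g⁻¹ * y⁻¹ = g * z * g⁻¹ * z⁻¹) : y = z := by
  have h1 : z⁻¹ * y = 1 := by
    apply hg _ (Q.mul_mem (Q.inv_mem hz) hy)
    have h2 : y * g⁻¹ * y⁻¹ = z * g⁻¹ * z⁻¹ := by
      have h3 : g * (y * g⁻¹ * y⁻¹) = g * (z * g⁻¹ * z⁻¹) := by
        calc g * (y * g⁻¹ * y⁻¹) = g * y * g⁻¹ * y⁻¹ := by group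
          _ = g * z * g⁻¹ * z⁻¹ := h
          _ = _ := by group
      exact mul_left_cancel h3
    have h4 : y * g * y⁻¹ = z * g * z⁻¹ := by
      have h5 := congrArg (fun t => t⁻¹) h2
      simpa [mul_assoc] using h5
    calc g * (z⁻¹ * y) = z⁻¹ * (z * g * z⁻¹) * y := by group
      _ = z⁻¹ * (y * g * y⁻¹) * y := by rw [h4]
      _ = z⁻¹ * y * g := by group
  exact (inv_mul_eq_one.1 h1).symm

theorem mem_of_comm {G : Type u} [Group G] [Finite G] {Q W : Subgroup G} (hWn : W.Normal) (hWQ : W ≤ Q) {g : G}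
    (hg : ∀ x ∈ Q, g * x = x * g → x = 1) {x : G} (hx : x ∈ Q) (h : g * x * g⁻¹ * x⁻¹ ∈ W) : x ∈ W := by
  let f : W → W := fun y => ⟨g * y * g⁻¹ * (y : G)⁻¹, W.mul_mem (hWn.conj_mem y y.2 g) (W.inv_mem y.2)⟩
  have hf : Function.Injective f := by
    intro y z hyz
    exact Subtype.ext (comm_inj hg (hWQ y.2) (hWQ z.2) (congrArg Subtype.val hyz))
  obtain ⟨y, hy⟩ := (Finite.injective_iff_surjective.1 hf) ⟨_, h⟩
  have h1 := comm_inj hg (hWQ y.2) hx (congrArg Subtype.val hy)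
  rw [← h1]
  exact y.2

section quo

variable {G : Type u} {X : Type v} [Group G] [Finite G] [Group X] (φ : G →* X) (hφ : Function.Surjective φ)
  (W : Subgroup G) [hW : W.Normal] (hWQ : W ≤ φ.ker)

/-- the induced map of the quotient -/
def qm : G ⧸ W →* X := QuotientGroup.lift W φ hWQ

theorem qm_mk (g : G) : qm φ W hWQ (QuotientGroup.mk g) = φ g := rfl

include hφ in
theorem qm_surj : Function.Surjective (qm φ W hWQ) := by
  intro x
  obtain ⟨g, rfl⟩ := hφ x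
  exact ⟨QuotientGroup.mk g, rfl⟩

theorem mem_qm_ker {g : G} : (QuotientGroup.mk g : G ⧸ W) ∈ (qm φ W hWQ).ker ↔ g ∈ φ.ker := Iff.rfl

theorem qm_ker_pgroup (hQ : IsPGroup 2 φ.ker) : IsPGroup 2 (qm φ W hWQ).ker := by
  rintro ⟨a, ha⟩
  obtain ⟨g, rfl⟩ := QuotientGroup.mk_surjective a
  obtain ⟨k, hk⟩ := hQ ⟨g, ha⟩
  refine ⟨k, Subtype.ext ?_⟩
  have h1 : g ^ 2 ^ k = 1 := congrArg Subtype.val hk
  show (QuotientGroup.mk g : G ⧸ W) ^ 2 ^ k = 1
  rw [← QuotientGroup.mk_pow, h1]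
  rfl

theorem qm_fpf (hf : ∀ g : G, Odd (orderOf g) → g ≠ 1 → ∀ x ∈ φ.ker, g * x = x * g → x = 1) :
    ∀ g : G ⧸ W, Odd (orderOf g) → g ≠ 1 → ∀ x ∈ (qm φ W hWQ).ker, g * x = x * g → x = 1 := by
  intro a ha ha1 b hb hab
  obtain ⟨g, rfl, hg⟩ := exists_lift (QuotientGroup.mk'_surjective W) ha
  obtain ⟨x, rfl⟩ := QuotientGroup.mk_surjective b
  have hg1 : g ≠ 1 := by rintro rfl; exact ha1 (map_one _)
  have hx : x ∈ φ.ker := hb
  have h1 : g * x * g⁻¹ * x⁻¹ ∈ W := by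
    rw [← QuotientGroup.eq_one_iff]
    have h2 : (QuotientGroup.mk g : G ⧸ W) * QuotientGroup.mk x = QuotientGroup.mk x * QuotientGroup.mk g := hab
    rw [QuotientGroup.mk_mul, QuotientGroup.mk_mul, QuotientGroup.mk_mul, h2, QuotientGroup.mk_inv,
      QuotientGroup.mk_inv, mul_inv_cancel_right, mul_inv_cancel]
  exact (QuotientGroup.eq_one_iff x).2 (mem_of_comm hW hWQ (hf g hg hg1) hx h1)

end quo

section Md

variable {H : Type u} [Group H]

/-- a commutative subgroup as an additive group -/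
def Md (M : Subgroup H) (_ : ∀ a ∈ M, ∀ b ∈ M, a * b = b * a) : Type u := Additive M

variable {M : Subgroup H} {hM : ∀ a ∈ M, ∀ b ∈ M, a * b = b * a}

instance : AddCommGroup (Md M hM) :=
  letI : CommGroup M := { (inferInstance : Group M) with mul_comm := fun a b => Subtype.ext (hM a a.2 b b.2) }
  inferInstanceAs (AddCommGroup (Additive M))

instance [Finite H] : Finite (Md M hM) := inferInstanceAs (Finite M)

/-- the underlying element -/
def tm (v : Md M hM) : H := ((Additive.toMul (v : Additive M) : M) : H)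

/-- the element of the additive group -/
def md (hM : ∀ a ∈ M, ∀ b ∈ M, a * b = b * a) (h : H) (hh : h ∈ M) : Md M hM := Additive.ofMul (⟨h, hh⟩ : M)

theorem tm_md (h : H) (hh : h ∈ M) : tm (md hM h hh) = h := rfl

theorem tm_mem (v : Md M hM) : tm v ∈ M := (Additive.toMul (v : Additive M) : M).2

theorem tm_add (v w : Md M hM) : tm (v + w) = tm v * tm w := rfl

theorem tm_zero : tm (0 : Md M hM) = 1 := rfl

theorem tm_neg (v : Md M hM) : tm (-v) = (tm v)⁻¹ := rfl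

theorem tm_inj {v w : Md M hM} (h : tm v = tm w) : v = w := Subtype.ext h

theorem md_tm (v : Md M hM) : md hM (tm v) (tm_mem v) = v := rfl

/-- the conjugation action -/
def act0 [hMn : M.Normal] (hM : ∀ a ∈ M, ∀ b ∈ M, a * b = b * a) : H →* AddMonoid.End (Md M hM) where
  toFun h :=
    { toFun := fun v => md hM (h * tm v * h⁻¹) (hMn.conj_mem _ (tm_mem v) h)
      map_zero' := tm_inj (by rw [tm_md, tm_zero]; group)
      map_add' := fun v w => tm_inj (by rw [tm_md, tm_add, tm_add, tm_md, tm_md]; group) }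
  map_one' := DFunLike.ext _ _ fun v => tm_inj (by
    show 1 * tm v * 1⁻¹ = tm v
    group)
  map_mul' g h := DFunLike.ext _ _ fun v => tm_inj (by
    show g * h * tm v * (g * h)⁻¹ = g * (h * tm v * h⁻¹) * g⁻¹
    group)

theorem act0_apply [hMn : M.Normal] (h : H) (v : Md M hM) : tm (act0 hM h v) = h * tm v * h⁻¹ := rfl

variable {X : Type v} [Group X] (ψ : H →* X) (hψ : Function.Surjective ψ)

theorem act0_eq [hMn : M.Normal] (hc : ∀ q ∈ ψ.ker, ∀ m ∈ M, q * m = m * q) {h h' : H} (e : ψ h = ψ h') :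
    act0 hM h = act0 hM h' := DFunLike.ext _ _ fun v => tm_inj (by
  rw [act0_apply, act0_apply]
  have h1 : h⁻¹ * h' ∈ ψ.ker := by rw [MonoidHom.mem_ker, map_mul, map_inv, e, inv_mul_cancel]
  have h2 := hc _ h1 _ (tm_mem v)
  calc h * tm v * h⁻¹ = h * (tm v * (h⁻¹ * h')) * h'⁻¹ := by group
    _ = h * ((h⁻¹ * h') * tm v) * h'⁻¹ := by rw [h2]
    _ = h' * tm v * h'⁻¹ := by group)

/-- the action of `X` -/
noncomputable def act [hMn : M.Normal] (hM : ∀ a ∈ M, ∀ b ∈ M, a * b = b * a)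
    (hc : ∀ q ∈ ψ.ker, ∀ m ∈ M, q * m = m * q) : X →* AddMonoid.End (Md M hM) where
  toFun x := act0 hM (Function.surjInv hψ x)
  map_one' := by
    rw [← map_one (act0 hM)]
    exact act0_eq ψ hc (by rw [Function.surjInv_eq hψ, map_one])
  map_mul' x y := by
    rw [← map_mul (act0 hM)]
    exact act0_eq ψ hc (by rw [map_mul, Function.surjInv_eq hψ, Function.surjInv_eq hψ, Function.surjInv_eq hψ])

theorem act_eq [hMn : M.Normal] (hc : ∀ q ∈ ψ.ker, ∀ m ∈ M, q * m = m * q) (h : H) :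
    act ψ hψ hM hc (ψ h) = act0 hM h :=
  act0_eq ψ hc (Function.surjInv_eq hψ _)

theorem act_apply [hMn : M.Normal] (hc : ∀ q ∈ ψ.ker, ∀ m ∈ M, q * m = m * q) (h : H) (v : Md M hM) :
    tm (act ψ hψ hM hc (ψ h) v) = h * tm v * h⁻¹ := by
  rw [act_eq]; rfl

theorem act_fpf [Finite H] [hMn : M.Normal] (hc : ∀ q ∈ ψ.ker, ∀ m ∈ M, q * m = m * q)
    (hf : ∀ h : H, Odd (orderOf h) → h ≠ 1 → ∀ x ∈ M, h * x = x * h → x = 1) : Fpf2 (act ψ hψ hM hc) := by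
  intro x hx hx1 v hv
  obtain ⟨h, rfl, ho⟩ := exists_lift hψ hx
  have hh1 : h ≠ 1 := by rintro rfl; exact hx1 (map_one _)
  have h1 := congrArg tm hv
  rw [act_apply] at h1
  apply tm_inj
  rw [tm_zero]
  exact hf h ho hh1 _ (tm_mem v) (mul_inv_eq_iff_eq_mul.1 h1)

/-- the subgroup given by an additive subgroup -/
def pull (C : AddSubgroup (Md M hM)) : Subgroup H where
  carrier := {h | ∃ v ∈ C, tm v = h}
  mul_mem' := by
    rintro _ _ ⟨v, hv, rfl⟩ ⟨w, hw, rfl⟩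
    exact ⟨v + w, C.add_mem hv hw, rfl⟩
  one_mem' := ⟨0, C.zero_mem, rfl⟩
  inv_mem' := by
    rintro _ ⟨v, hv, rfl⟩
    exact ⟨-v, C.neg_mem hv, rfl⟩

theorem mem_pull {C : AddSubgroup (Md M hM)} {h : H} : h ∈ pull C ↔ ∃ v ∈ C, tm v = h := Iff.rfl

theorem tm_mem_pull {C : AddSubgroup (Md M hM)} {v : Md M hM} : tm v ∈ pull C ↔ v ∈ C := by
  rw [mem_pull]
  constructor
  · rintro ⟨w, hw, h⟩
    rwa [← tm_inj h]
  · intro h; exact ⟨v, h, rfl⟩

theorem pull_le (C : AddSubgroup (Md M hM)) : pull C ≤ M := by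
  rintro _ ⟨v, _, rfl⟩
  exact tm_mem v

theorem pull_normal [hMn : M.Normal] (hc : ∀ q ∈ ψ.ker, ∀ m ∈ M, q * m = m * q) (C : AddSubgroup (Md M hM))
    (hC : ∀ x : X, ∀ v ∈ C, act ψ hψ hM hc x v ∈ C) : (pull C).Normal := by
  refine ⟨?_⟩
  rintro _ ⟨v, hv, rfl⟩ h
  exact ⟨act ψ hψ hM hc (ψ h) v, hC _ v hv, act_apply ψ hψ hc h v⟩

theorem pull_bot {C : AddSubgroup (Md M hM)} (h : pull C = ⊥) : C = ⊥ := by
  rw [eq_bot_iff]
  intro v hv
  have h1 := tm_mem_pull.2 hv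
  rw [h, Subgroup.mem_bot] at h1
  exact AddSubgroup.mem_bot.2 (tm_inj h1)

theorem pull_top {C : AddSubgroup (Md M hM)} (h : pull C = M) : C = ⊤ := by
  rw [eq_top_iff]
  intro v _
  rw [← tm_mem_pull, h]
  exact tm_mem v

theorem act_irr [hMn : M.Normal] (hc : ∀ q ∈ ψ.ker, ∀ m ∈ M, q * m = m * q) (hM1 : M ≠ ⊥)
    (hmin : ∀ N : Subgroup H, N.Normal → N ≤ M → N = ⊥ ∨ N = M) : Irr2 (act ψ hψ hM hc) := by
  constructor
  · by_contra hcon
    push Not at hcon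
    apply hM1
    rw [eq_bot_iff]
    intro h hh
    have h1 := congrArg tm (hcon (md hM h hh))
    rw [tm_md, tm_zero] at h1
    exact Subgroup.mem_bot.2 h1
  · intro C hC
    rcases hmin (pull C) (pull_normal ψ hψ hc C hC) (pull_le C) with h | h
    · exact Or.inl (pull_bot h)
    · exact Or.inr (pull_top h)

end Md

section Pairing

theorem cm_left {G : Type u} [Group G] {x y a : G} (h : a * y = y * a) : (x * a) * y * (x * a)⁻¹ * y⁻¹ = x * y * x⁻¹ * y⁻¹ := by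
  calc (x * a) * y * (x * a)⁻¹ * y⁻¹ = x * (a * y) * a⁻¹ * x⁻¹ * y⁻¹ := by group
    _ = x * (y * a) * a⁻¹ * x⁻¹ * y⁻¹ := by rw [h]
    _ = _ := by group

theorem cm_right {G : Type u} [Group G] {x y b : G} (h : b * x = x * b) : x * (y * b) * x⁻¹ * (y * b)⁻¹ = x * y * x⁻¹ * y⁻¹ := by
  have h2 : b * x⁻¹ = x⁻¹ * b := by
    calc b * x⁻¹ = x⁻¹ * (x * b) * x⁻¹ := by group
      _ = x⁻¹ * (b * x) * x⁻¹ := by rw [h]
      _ = _ := by group
  calc x * (y * b) * x⁻¹ * (y * b)⁻¹ = x * y * (b * x⁻¹) * b⁻¹ * y⁻¹ := by group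
    _ = x * y * (x⁻¹ * b) * b⁻¹ * y⁻¹ := by rw [h2]
    _ = _ := by group

theorem pairing {G : Type u} {X : Type v} [Group G] [Finite G] [Group X] (φ : G →* X)
    (W : Subgroup G) [hWn : W.Normal] (hWQ : W ≤ φ.ker) (hWc : ∀ a ∈ W, ∀ b ∈ W, a * b = b * a)
    (hcen : ∀ w ∈ W, ∀ q ∈ φ.ker, w * q = q * w)
    (hcq : ∀ a ∈ (qm φ W hWQ).ker, ∀ b ∈ (qm φ W hWQ).ker, a * b = b * a) :
    ∃ B : Md (qm φ W hWQ).ker hcq →+ Md (qm φ W hWQ).ker hcq →+ Md W hWc, ∀ x ∈ φ.ker, ∀ y ∈ φ.ker, ∀ v w,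
      tm v = (QuotientGroup.mk x : G ⧸ W) → tm w = (QuotientGroup.mk y : G ⧸ W) → tm (B v w) = x * y * x⁻¹ * y⁻¹ := by
  classical
  have hcm : ∀ x ∈ φ.ker, ∀ y ∈ φ.ker, x * y * x⁻¹ * y⁻¹ ∈ W := by
    intro x hx y hy
    rw [← QuotientGroup.eq_one_iff]
    have h2 : (QuotientGroup.mk x : G ⧸ W) * QuotientGroup.mk y = QuotientGroup.mk y * QuotientGroup.mk x :=
      hcq _ hx _ hy
    rw [QuotientGroup.mk_mul, QuotientGroup.mk_mul, QuotientGroup.mk_mul, h2, QuotientGroup.mk_inv,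
      QuotientGroup.mk_inv, mul_inv_cancel_right, mul_inv_cancel]
  have hindep : ∀ x ∈ φ.ker, ∀ y ∈ φ.ker, ∀ x' ∈ φ.ker, ∀ y' ∈ φ.ker, (QuotientGroup.mk x : G ⧸ W) = QuotientGroup.mk x' →
      (QuotientGroup.mk y : G ⧸ W) = QuotientGroup.mk y' → x * y * x⁻¹ * y⁻¹ = x' * y' * x'⁻¹ * y'⁻¹ := by
    intro x hx y hy x' hx' y' hy' e1 e2
    rw [QuotientGroup.eq] at e1 e2
    have e3 : x' = x * (x⁻¹ * x') := by group
    have e4 : y' = y * (y⁻¹ * y') := by group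
    rw [e3, cm_left (hcen _ e1 _ hy'), e4, cm_right (hcen _ e2 _ hx)]
  have hrep : ∀ v : Md (qm φ W hWQ).ker hcq, ∃ x ∈ φ.ker, (QuotientGroup.mk x : G ⧸ W) = tm v := by
    intro v
    obtain ⟨x, hx⟩ := QuotientGroup.mk_surjective (tm v)
    refine ⟨x, ?_, hx⟩
    have := tm_mem v
    rw [← hx] at this
    exact this
  choose rep hrep1 hrep2 using hrep
  have hadd1 : ∀ x1 ∈ φ.ker, ∀ x2 ∈ φ.ker, ∀ y ∈ φ.ker, (x1 * x2) * y * (x1 * x2)⁻¹ * y⁻¹ =
      (x1 * y * x1⁻¹ * y⁻¹) * (x2 * y * x2⁻¹ * y⁻¹) := by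
    intro x1 h1 x2 h2 y hy
    have h3 := hcen _ (hcm x2 h2 y hy) _ h1
    have h4 := hWc _ (hcm x1 h1 y hy) _ (hcm x2 h2 y hy)
    rw [h4]
    calc (x1 * x2) * y * (x1 * x2)⁻¹ * y⁻¹ = x1 * (x2 * y * x2⁻¹ * y⁻¹) * y * x1⁻¹ * y⁻¹ := by group
      _ = (x2 * y * x2⁻¹ * y⁻¹) * x1 * y * x1⁻¹ * y⁻¹ := by rw [h3]
      _ = _ := by group
  have hadd2 : ∀ x ∈ φ.ker, ∀ y1 ∈ φ.ker, ∀ y2 ∈ φ.ker, x * (y1 * y2) * x⁻¹ * (y1 * y2)⁻¹ =
      (x * y1 * x⁻¹ * y1⁻¹) * (x * y2 * x⁻¹ * y2⁻¹) := by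
    intro x hx y1 h1 y2 h2
    have h3 := hcen _ (hcm x hx y2 h2) _ (φ.ker.inv_mem h1)
    calc x * (y1 * y2) * x⁻¹ * (y1 * y2)⁻¹ = x * y1 * x⁻¹ * ((x * y2 * x⁻¹ * y2⁻¹) * y1⁻¹) := by group
      _ = x * y1 * x⁻¹ * (y1⁻¹ * (x * y2 * x⁻¹ * y2⁻¹)) := by rw [h3]
      _ = _ := by group
  refine ⟨AddMonoidHom.mk' (fun v => AddMonoidHom.mk' (fun w =>
    md hWc (rep v * rep w * (rep v)⁻¹ * (rep w)⁻¹) (hcm _ (hrep1 v) _ (hrep1 w))) ?_) ?_, ?_⟩
  · intro w1 w2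
    apply tm_inj
    rw [tm_add, tm_md, tm_md, tm_md, ← hadd2 _ (hrep1 v) _ (hrep1 w1) _ (hrep1 w2)]
    apply hindep _ (hrep1 v) _ (hrep1 _) _ (hrep1 v) _ (φ.ker.mul_mem (hrep1 w1) (hrep1 w2)) rfl
    rw [hrep2, QuotientGroup.mk_mul, hrep2, hrep2, tm_add]
  · intro v1 v2
    ext w
    apply tm_inj
    show rep (v1 + v2) * rep w * (rep (v1 + v2))⁻¹ * (rep w)⁻¹ =
      (rep v1 * rep w * (rep v1)⁻¹ * (rep w)⁻¹) * (rep v2 * rep w * (rep v2)⁻¹ * (rep w)⁻¹)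
    rw [← hadd1 _ (hrep1 v1) _ (hrep1 v2) _ (hrep1 w)]
    apply hindep _ (hrep1 _) _ (hrep1 w) _ (φ.ker.mul_mem (hrep1 v1) (hrep1 v2)) _ (hrep1 w) _ rfl
    rw [hrep2, QuotientGroup.mk_mul, hrep2, hrep2, tm_add]
  · intro x hx y hy v w hv hw
    show rep v * rep w * (rep v)⁻¹ * (rep w)⁻¹ = _
    exact hindep _ (hrep1 v) _ (hrep1 w) _ hx _ hy ((hrep2 v).trans hv) ((hrep2 w).trans hw)

end Pairing

section Main

variable {X : Type v} [Group X] [Finite X]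

/-- the conclusion for groups of smaller order -/
def IH (X : Type v) [Group X] (n : ℕ) : Prop :=
  ∀ {G : Type v} [Group G] [Finite G], Nat.card G < n → ∀ (φ : G →* X), Function.Surjective φ →
    IsPGroup 2 φ.ker → (∀ g : G, Odd (orderOf g) → g ≠ 1 → ∀ x ∈ φ.ker, g * x = x * g → x = 1) →
    (∀ x ∈ φ.ker, ∀ y ∈ φ.ker, x * y = y * x) ∧ ∀ x ∈ φ.ker, x * x = 1

variable {G : Type v} [Group G] [Finite G] {φ : G →* X} (hφ : Function.Surjective φ) (hQ : IsPGroup 2 φ.ker)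
  (hfpf : ∀ g : G, Odd (orderOf g) → g ≠ 1 → ∀ x ∈ φ.ker, g * x = x * g → x = 1)

include hφ hQ hfpf

theorem star (ih : IH X (Nat.card G)) (W : Subgroup G) [hW : W.Normal] (hWQ : W ≤ φ.ker) (hW1 : W ≠ ⊥) :
    (∀ a ∈ (qm φ W hWQ).ker, ∀ b ∈ (qm φ W hWQ).ker, a * b = b * a) ∧ ∀ a ∈ (qm φ W hWQ).ker, a * a = 1 := by
  apply ih ?_ (qm φ W hWQ) (qm_surj φ hφ W hWQ) (qm_ker_pgroup φ W hWQ hQ) (qm_fpf φ W hWQ hfpf)
  have h1 := W.card_mul_index
  have h2 : 1 < Nat.card W := by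
    rw [Subgroup.one_lt_card_iff_ne_bot]; exact hW1
  have h3 : Nat.card (G ⧸ W) = W.index := rfl
  rw [h3, ← h1]
  have h4 : 0 < W.index := Nat.pos_of_ne_zero Subgroup.index_ne_zero_of_finite
  nlinarith

end Main

theorem exists_minimal_normal {G : Type u} [Group G] [Finite G] (P : Subgroup G → Prop) {H : Subgroup G} (hH : P H) :
    ∃ M : Subgroup G, P M ∧ ∀ N : Subgroup G, P N → N ≤ M → N = M := by
  obtain ⟨M, hM⟩ := (Set.toFinite {N : Subgroup G | P N}).exists_minimal ⟨H, hH⟩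
  exact ⟨M, hM.1, fun N hN hle => le_antisymm hle (hM.2 hN hle)⟩

/-- Mart.step -/
theorem step {X : Type v} [Group X] [Finite X]
    (hbil : ∀ {V1 V3 : Type v} [AddCommGroup V1] [Finite V1] [AddCommGroup V3] [Finite V3],
      (∀ v : V1, v + v = 0) → (∀ v : V3, v + v = 0) → ∀ (ρ1 : X →* AddMonoid.End V1)
      (ρ3 : X →* AddMonoid.End V3), Fpf2 ρ1 → Fpf2 ρ3 → ∀ (B : V1 →+ V1 →+ V3),
      (∀ g x y, B (ρ1 g x) (ρ1 g y) = ρ3 g (B x y)) → B = 0)
    (hexp : ∀ {R L W : Type v} [AddCommGroup R] [Finite R] [AddCommGroup L] [Finite L] [AddCommGroup W] [Finite W]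
      (h2 : ∀ r : L, r + r = 0) (h2' : ∀ r : W, r + r = 0) (ρR : X →* AddMonoid.End R)
      (ρL : X →* AddMonoid.End L) (ρW : X →* AddMonoid.End W)
      (hf : Fpf2 ρR) (hL : Irr2 ρL) (hW : Irr2 ρW)
      (i : W →+ R) (π : R →+ L) (hi : Function.Injective i) (hπ : Function.Surjective π)
      (hex : ∀ r : R, π r = 0 ↔ ∃ y : W, i y = r)
      (hig : ∀ g y, ρR g (i y) = i (ρW g y)) (hπg : ∀ g r, π (ρR g r) = ρL g (π r)), ∀ r : R, r + r = 0)
    (hsplit : ∀ {R L W : Type v} [AddCommGroup R] [Finite R] [AddCommGroup L] [Finite L] [AddCommGroup W] [Finite W]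
      (h2 : ∀ r : R, r + r = 0) (ρR : X →* AddMonoid.End R) (ρL : X →* AddMonoid.End L)
      (ρW : X →* AddMonoid.End W) (hf : Fpf2 ρR) (hL : Irr2 ρL) (hW : Irr2 ρW)
      (i : W →+ R) (π : R →+ L) (hi : Function.Injective i) (hπ : Function.Surjective π)
      (hex : ∀ r : R, π r = 0 ↔ ∃ y : W, i y = r)
      (hig : ∀ g y, ρR g (i y) = i (ρW g y)) (hπg : ∀ g r, π (ρR g r) = ρL g (π r)),
      ∃ C : AddSubgroup R, (∀ g, ∀ r ∈ C, ρR g r ∈ C) ∧ C ⊓ i.range = ⊥ ∧ C ⊔ i.range = ⊤)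
    {G : Type v} [Group G] [Finite G] (ih : IH X (Nat.card G)) (φ : G →* X) (hφ : Function.Surjective φ)
    (hQ : IsPGroup 2 φ.ker)
    (hfpf : ∀ g : G, Odd (orderOf g) → g ≠ 1 → ∀ x ∈ φ.ker, g * x = x * g → x = 1) :
    (∀ x ∈ φ.ker, ∀ y ∈ φ.ker, x * y = y * x) ∧ ∀ x ∈ φ.ker, x * x = 1 := by
  classical
  haveI : Fact (Nat.Prime 2) := ⟨Nat.prime_two⟩
  by_cases hQ1 : φ.ker = ⊥
  · rw [hQ1]
    refine ⟨?_, ?_⟩
    · intro x hx y hy
      rw [Subgroup.mem_bot.1 hx, Subgroup.mem_bot.1 hy]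
    · intro x hx
      rw [Subgroup.mem_bot.1 hx, mul_one]
  -- two normal subgroups with trivial intersection
  by_cases hU : ∃ W1 W2 : Subgroup G, W1.Normal ∧ W2.Normal ∧ W1 ≤ φ.ker ∧ W2 ≤ φ.ker ∧ W1 ≠ ⊥ ∧ W2 ≠ ⊥ ∧ W1 ⊓ W2 = ⊥
  · obtain ⟨W1, W2, hn1, hn2, hl1, hl2, hb1, hb2, hinf⟩ := hU
    haveI := hn1
    haveI := hn2
    have key : ∀ (W : Subgroup G) [W.Normal] (hl : W ≤ φ.ker), W ≠ ⊥ → (∀ x ∈ φ.ker, ∀ y ∈ φ.ker, (y * x)⁻¹ * (x * y) ∈ W) ∧
        ∀ x ∈ φ.ker, x * x ∈ W := by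
      intro W _ hl hb
      obtain ⟨h1, h2⟩ := star hφ hQ hfpf ih W hl hb
      refine ⟨fun x hx y hy => ?_, fun x hx => ?_⟩
      · have h3 : (QuotientGroup.mk x : G ⧸ W) * QuotientGroup.mk y = QuotientGroup.mk y * QuotientGroup.mk x :=
          h1 _ hx _ hy
        rw [← QuotientGroup.eq]
        exact h3.symm
      · rw [← QuotientGroup.eq_one_iff]
        exact h2 (QuotientGroup.mk x : G ⧸ W) hx
    have k1 := key W1 hl1 hb1
    have k2 := key W2 hl2 hb2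
    refine ⟨fun x hx y hy => ?_, fun x hx => ?_⟩
    · have h1 : (y * x)⁻¹ * (x * y) ∈ W1 ⊓ W2 := ⟨k1.1 x hx y hy, k2.1 x hx y hy⟩
      rw [hinf, Subgroup.mem_bot] at h1
      exact (inv_mul_eq_one.1 h1).symm
    · have h1 : x * x ∈ W1 ⊓ W2 := ⟨k1.2 x hx, k2.2 x hx⟩
      rw [hinf, Subgroup.mem_bot] at h1
      exact h1
  -- the minimal normal subgroup
  obtain ⟨W, ⟨hWn, hWQ, hWb⟩, hWmin⟩ := exists_minimal_normal
    (fun N : Subgroup G => N.Normal ∧ N ≤ φ.ker ∧ N ≠ ⊥) ⟨(inferInstance : φ.ker.Normal), le_refl _, hQ1⟩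
  haveI := hWn
  have hmeet : ∀ N : Subgroup G, N.Normal → N ≤ φ.ker → N ≠ ⊥ → W ≤ N := by
    intro N hN hNQ hNb
    haveI := hN
    have h1 : N ⊓ W ≠ ⊥ := fun h => hU ⟨N, W, hN, hWn, hNQ, hWQ, hNb, hWb, h⟩
    have h2 := hWmin (N ⊓ W) ⟨inferInstance, inf_le_right.trans hWQ, h1⟩ inf_le_right
    exact inf_eq_right.1 h2
  -- `W` is central in `Q`
  have hcen : ∀ w ∈ W, ∀ q ∈ φ.ker, w * q = q * w := by
    have h1 : φ.ker ⊓ Subgroup.centralizer (φ.ker : Set G) ≠ ⊥ := by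
      haveI : Nontrivial φ.ker := (Subgroup.nontrivial_iff_ne_bot _).2 hQ1
      haveI := hQ.center_nontrivial
      obtain ⟨z, hz⟩ := exists_ne (1 : Subgroup.center φ.ker)
      intro hb
      have h2 : ((z : φ.ker) : G) ∈ φ.ker ⊓ Subgroup.centralizer (φ.ker : Set G) := by
        refine ⟨(z : φ.ker).2, ?_⟩
        refine Subgroup.mem_centralizer_iff.2 ?_
        intro q hq
        exact congrArg Subtype.val (Subgroup.mem_center_iff.1 z.2 ⟨q, hq⟩)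
      rw [hb, Subgroup.mem_bot] at h2
      exact hz (Subtype.ext (Subtype.ext h2))
    have h2 := hmeet _ inferInstance inf_le_left h1
    intro w hw q hq
    exact (Subgroup.mem_centralizer_iff.1 (h2 hw).2 q hq).symm
  have hWc : ∀ a ∈ W, ∀ b ∈ W, a * b = b * a := fun a ha b hb => hcen a ha b (hWQ hb)
  -- `W` has exponent 2
  have hW2 : ∀ w ∈ W, w * w = 1 := by
    let Om : Subgroup G :=
      { carrier := {x | x ∈ W ∧ x * x = 1}
        mul_mem' := by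
          rintro a b ⟨ha, ha2⟩ ⟨hb, hb2⟩
          refine ⟨W.mul_mem ha hb, ?_⟩
          calc a * b * (a * b) = a * (b * a) * b := by group
            _ = a * (a * b) * b := by rw [hWc b hb a ha]
            _ = (a * a) * (b * b) := by group
            _ = 1 := by rw [ha2, hb2, mul_one]
        one_mem' := ⟨W.one_mem, one_mul 1⟩
        inv_mem' := by
          rintro a ⟨ha, ha2⟩
          refine ⟨W.inv_mem ha, ?_⟩
          rw [← mul_inv_rev, ha2, inv_one] }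
    have hOn : Om.Normal := by
      refine ⟨?_⟩
      rintro a ⟨ha, ha2⟩ g
      refine ⟨hWn.conj_mem a ha g, ?_⟩
      calc g * a * g⁻¹ * (g * a * g⁻¹) = g * (a * a) * g⁻¹ := by group
        _ = 1 := by rw [ha2]; group
    have hOb : Om ≠ ⊥ := by
      have hp : IsPGroup 2 W := hQ.to_le hWQ
      have h2 : 2 ∣ Nat.card W := by
        haveI : Nontrivial W := (Subgroup.nontrivial_iff_ne_bot _).2 hWb
        obtain ⟨n, hn, hc⟩ := hp.nontrivial_iff_card.1 inferInstance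
        rw [hc]
        exact dvd_pow_self 2 hn.ne'
      obtain ⟨t, ht⟩ := exists_prime_orderOf_dvd_card' 2 h2
      intro hb
      have h3 : (t : G) ∈ Om := by
        refine ⟨t.2, ?_⟩
        have h4 : t * t = 1 := by rw [← sq, ← ht, pow_orderOf_eq_one]
        exact congrArg Subtype.val h4
      rw [hb, Subgroup.mem_bot] at h3
      have h5 : t = 1 := Subtype.ext h3
      rw [h5, orderOf_one] at ht
      norm_num at ht
    have h1 := hmeet Om hOn (fun x hx => hWQ hx.1) hOb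
    intro w hw
    exact (h1 hw).2
  obtain ⟨hqc, hq2⟩ := star hφ hQ hfpf ih W hWQ hWb
  -- the commutator pairing
  have hab : ∀ x ∈ φ.ker, ∀ y ∈ φ.ker, x * y = y * x := by
    obtain ⟨B, hB⟩ := pairing φ W hWQ hWc hcen hqc
    have hcW : ∀ q ∈ φ.ker, ∀ m ∈ W, q * m = m * q := fun q hq m hm => (hcen m hm q hq).symm
    have hB0 : B = 0 := by
      refine hbil ?_ ?_ (act (qm φ W hWQ) (qm_surj φ hφ W hWQ) hqc hqc) (act φ hφ hWc hcW) ?_ ?_ B ?_
      · intro v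
        exact tm_inj (by rw [tm_add, tm_zero]; exact hq2 _ (tm_mem v))
      · intro v
        exact tm_inj (by rw [tm_add, tm_zero]; exact hW2 _ (tm_mem v))
      · exact act_fpf _ _ _ (qm_fpf φ W hWQ hfpf)
      · exact act_fpf _ _ _ (fun h ho h1 x hx => hfpf h ho h1 x (hWQ hx))
      · intro g v w
        obtain ⟨g', rfl⟩ := hφ g
        obtain ⟨x, hx⟩ := QuotientGroup.mk_surjective (tm v)
        obtain ⟨y, hy⟩ := QuotientGroup.mk_surjective (tm w)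
        have hxk : x ∈ φ.ker := by
          have := tm_mem v
          rw [← hx] at this
          exact this
        have hyk : y ∈ φ.ker := by
          have := tm_mem w
          rw [← hy] at this
          exact this
        have hn : φ.ker.Normal := inferInstance
        apply tm_inj
        rw [act_apply, hB x hxk y hyk v w hx.symm hy.symm]
        have e1 : ∀ v, tm (act (qm φ W hWQ) (qm_surj φ hφ W hWQ) hqc hqc (φ g') v) =
            (QuotientGroup.mk g' : G ⧸ W) * tm v * (QuotientGroup.mk g' : G ⧸ W)⁻¹ := fun v =>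
          act_apply (qm φ W hWQ) (qm_surj φ hφ W hWQ) hqc (QuotientGroup.mk g' : G ⧸ W) v
        rw [hB (g' * x * g'⁻¹) (hn.conj_mem x hxk g') (g' * y * g'⁻¹) (hn.conj_mem y hyk g')]
        · group
        · rw [e1, ← hx]; rfl
        · rw [e1, ← hy]; rfl
    intro x hx y hy
    have h1 := hB x hx y hy (md hqc (QuotientGroup.mk x) hx) (md hqc (QuotientGroup.mk y) hy) rfl rfl
    rw [hB0] at h1
    have h2 : (1 : G) = x * y * x⁻¹ * y⁻¹ := h1
    calc x * y = (x * y * x⁻¹ * y⁻¹) * (y * x) := by group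
      _ = y * x := by rw [← h2, one_mul]
  refine ⟨hab, ?_⟩
  by_cases hQW : φ.ker ≤ W
  · exact fun x hx => hW2 x (hQW hx)
  exfalso
  -- an irreducible submodule of the quotient
  have hker : (qm φ W hWQ).ker ≠ ⊥ := by
    intro hb
    apply hQW
    intro x hx
    have h1 : (QuotientGroup.mk x : G ⧸ W) ∈ (qm φ W hWQ).ker := hx
    rw [hb, Subgroup.mem_bot] at h1
    exact (QuotientGroup.eq_one_iff x).1 h1
  obtain ⟨L, ⟨hLn, hLQ, hLb⟩, hLmin⟩ := exists_minimal_normal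
    (fun N : Subgroup (G ⧸ W) => N.Normal ∧ N ≤ (qm φ W hWQ).ker ∧ N ≠ ⊥)
    ⟨(inferInstance : (qm φ W hWQ).ker.Normal), le_refl _, hker⟩
  haveI := hLn
  have hLc : ∀ a ∈ L, ∀ b ∈ L, a * b = b * a := fun a ha b hb => hqc a (hLQ ha) b (hLQ hb)
  let R : Subgroup G := L.comap (QuotientGroup.mk' W)
  have hRn : R.Normal := inferInstance
  have hRQ : R ≤ φ.ker := fun x hx => hLQ (x := QuotientGroup.mk x) hx
  have hWR : W ≤ R := by
    intro x hx
    show (QuotientGroup.mk x : G ⧸ W) ∈ L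
    rw [(QuotientGroup.eq_one_iff x).2 hx]
    exact L.one_mem
  have hRc : ∀ a ∈ R, ∀ b ∈ R, a * b = b * a := fun a ha b hb => hab a (hRQ ha) b (hRQ hb)
  let i : Md W hWc →+ Md R hRc := AddMonoidHom.mk' (fun v => md hRc (tm v) (hWR (tm_mem v))) (fun v w => rfl)
  let π : Md R hRc →+ Md L hLc := AddMonoidHom.mk' (fun v => md hLc (QuotientGroup.mk (tm v)) (tm_mem v))
    (fun v w => rfl)
  have hi1 : ∀ v, tm (i v) = tm v := fun v => rfl
  have hπ1 : ∀ v, tm (π v) = (QuotientGroup.mk (tm v) : G ⧸ W) := fun v => rfl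
  have hi : Function.Injective i := by
    intro v w h
    apply tm_inj
    rw [← hi1, ← hi1, h]
  have hπ : Function.Surjective π := by
    intro v
    obtain ⟨x, hx⟩ := QuotientGroup.mk_surjective (tm v)
    have hxR : x ∈ R := by
      show (QuotientGroup.mk x : G ⧸ W) ∈ L
      rw [hx]; exact tm_mem v
    exact ⟨md hRc x hxR, tm_inj (by rw [hπ1, tm_md]; exact hx)⟩
  have hex : ∀ r, π r = 0 ↔ ∃ y, i y = r := by
    intro r
    constructor
    · intro h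
      have h1 := congrArg tm h
      rw [hπ1, tm_zero] at h1
      have h2 := (QuotientGroup.eq_one_iff _).1 h1
      exact ⟨md hWc (tm r) h2, tm_inj (by rw [hi1, tm_md])⟩
    · rintro ⟨y, rfl⟩
      apply tm_inj
      rw [hπ1, hi1, tm_zero]
      exact (QuotientGroup.eq_one_iff _).2 (tm_mem y)
  have hcW : ∀ q ∈ φ.ker, ∀ m ∈ W, q * m = m * q := fun q hq m hm => (hcen m hm q hq).symm
  have hcR : ∀ q ∈ φ.ker, ∀ m ∈ R, q * m = m * q := fun q hq m hm => hab q hq m (hRQ hm)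
  have hcL : ∀ q ∈ (qm φ W hWQ).ker, ∀ m ∈ L, q * m = m * q := fun q hq m hm => hqc q hq m (hLQ hm)
  have eL : ∀ (g : G) v, tm (act (qm φ W hWQ) (qm_surj φ hφ W hWQ) hLc hcL (φ g) v) =
      (QuotientGroup.mk g : G ⧸ W) * tm v * (QuotientGroup.mk g : G ⧸ W)⁻¹ := fun g v =>
    act_apply (qm φ W hWQ) (qm_surj φ hφ W hWQ) hcL (QuotientGroup.mk g : G ⧸ W) v
  have hfR : Fpf2 (act φ hφ hRc hcR) := act_fpf _ _ _ (fun h ho h1 x hx => hfpf h ho h1 x (hRQ hx))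
  have hIL : Irr2 (act (qm φ W hWQ) (qm_surj φ hφ W hWQ) hLc hcL) := by
    refine act_irr _ _ _ hLb ?_
    intro N hN hle
    by_cases hb : N = ⊥
    · exact Or.inl hb
    · exact Or.inr (hLmin N ⟨hN, hle.trans hLQ, hb⟩ hle)
  have hIW : Irr2 (act φ hφ hWc hcW) := by
    refine act_irr _ _ _ hWb ?_
    intro N hN hle
    by_cases hb : N = ⊥
    · exact Or.inl hb
    · exact Or.inr (hWmin N ⟨hN, hle.trans hWQ, hb⟩ hle)
  have hig : ∀ g y, act φ hφ hRc hcR g (i y) = i (act φ hφ hWc hcW g y) := by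
    intro g y
    obtain ⟨g', rfl⟩ := hφ g
    apply tm_inj
    rw [act_apply, hi1, hi1, act_apply]
  have hπg : ∀ g r, π (act φ hφ hRc hcR g r) = act (qm φ W hWQ) (qm_surj φ hφ W hWQ) hLc hcL g (π r) := by
    intro g r
    obtain ⟨g', rfl⟩ := hφ g
    apply tm_inj
    rw [hπ1, act_apply, eL, hπ1]
    rfl
  have h2R : ∀ r : Md R hRc, r + r = 0 :=
    hexp (fun v => tm_inj (by rw [tm_add, tm_zero]; exact hq2 _ (hLQ (tm_mem v))))
      (fun v => tm_inj (by rw [tm_add, tm_zero]; exact hW2 _ (tm_mem v)))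
      _ _ _ hfR hIL hIW i π hi hπ hex hig hπg
  obtain ⟨C, hC, hCi, hCs⟩ := hsplit h2R _ _ _ hfR hIL hIW i π hi hπ hex hig hπg
  have hCn := pull_normal φ hφ hcR C hC
  have hCW : pull C ⊓ W = ⊥ := by
    rw [eq_bot_iff]
    rintro x ⟨hx1, hx2⟩
    obtain ⟨v, hv, rfl⟩ := hx1
    have h1 : v ∈ C ⊓ i.range := ⟨hv, ⟨md hWc (tm v) hx2, tm_inj rfl⟩⟩
    rw [hCi] at h1
    rw [AddSubgroup.mem_bot.1 h1, tm_zero]
    exact Subgroup.one_mem _
  by_cases hb : pull C = ⊥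
  · have hCb := pull_bot hb
    rw [hCb, bot_sup_eq] at hCs
    apply hLb
    rw [eq_bot_iff]
    intro a ha
    obtain ⟨v, hv⟩ := hπ (md hLc a ha)
    have h1 : v ∈ i.range := by rw [hCs]; exact AddSubgroup.mem_top v
    obtain ⟨y, hy⟩ := h1
    have h2 : π v = 0 := (hex v).2 ⟨y, hy⟩
    have h3 : tm (π v) = a := by rw [hv]; rfl
    rw [h2, tm_zero] at h3
    rw [← h3]
    exact Subgroup.one_mem _
  · have h1 := hmeet (pull C) hCn ((pull_le C).trans hRQ) hb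
    apply hWb
    rw [← hCW]
    exact (inf_eq_right.2 h1).symm

/-- [P10] group theoretic assembly; hypotheses = conclusions of P6b, P7, P9 for additive modules of `X` -/
theorem mart {X : Type v} [Group X] [Finite X]
    (hbil : ∀ {V1 V3 : Type v} [AddCommGroup V1] [Finite V1] [AddCommGroup V3] [Finite V3],
      (∀ v : V1, v + v = 0) → (∀ v : V3, v + v = 0) → ∀ (ρ1 : X →* AddMonoid.End V1)
      (ρ3 : X →* AddMonoid.End V3), Fpf2 ρ1 → Fpf2 ρ3 → ∀ (B : V1 →+ V1 →+ V3),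
      (∀ g x y, B (ρ1 g x) (ρ1 g y) = ρ3 g (B x y)) → B = 0)
    (hexp : ∀ {R L W : Type v} [AddCommGroup R] [Finite R] [AddCommGroup L] [Finite L] [AddCommGroup W] [Finite W]
      (h2 : ∀ r : L, r + r = 0) (h2' : ∀ r : W, r + r = 0) (ρR : X →* AddMonoid.End R)
      (ρL : X →* AddMonoid.End L) (ρW : X →* AddMonoid.End W)
      (hf : Fpf2 ρR) (hL : Irr2 ρL) (hW : Irr2 ρW)
      (i : W →+ R) (π : R →+ L) (hi : Function.Injective i) (hπ : Function.Surjective π)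
      (hex : ∀ r : R, π r = 0 ↔ ∃ y : W, i y = r)
      (hig : ∀ g y, ρR g (i y) = i (ρW g y)) (hπg : ∀ g r, π (ρR g r) = ρL g (π r)), ∀ r : R, r + r = 0)
    (hsplit : ∀ {R L W : Type v} [AddCommGroup R] [Finite R] [AddCommGroup L] [Finite L] [AddCommGroup W] [Finite W]
      (h2 : ∀ r : R, r + r = 0) (ρR : X →* AddMonoid.End R) (ρL : X →* AddMonoid.End L)
      (ρW : X →* AddMonoid.End W) (hf : Fpf2 ρR) (hL : Irr2 ρL) (hW : Irr2 ρW)
      (i : W →+ R) (π : R →+ L) (hi : Function.Injective i) (hπ : Function.Surjective π)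
      (hex : ∀ r : R, π r = 0 ↔ ∃ y : W, i y = r)
      (hig : ∀ g y, ρR g (i y) = i (ρW g y)) (hπg : ∀ g r, π (ρR g r) = ρL g (π r)),
      ∃ C : AddSubgroup R, (∀ g, ∀ r ∈ C, ρR g r ∈ C) ∧ C ⊓ i.range = ⊥ ∧ C ⊔ i.range = ⊤)
    {G : Type v} [Group G] [Finite G] (φ : G →* X) (hφ : Function.Surjective φ) (hQ : IsPGroup 2 φ.ker)
    (hfpf : ∀ g : G, Odd (orderOf g) → g ≠ 1 → ∀ x ∈ φ.ker, g * x = x * g → x = 1) :
    (∀ x ∈ φ.ker, ∀ y ∈ φ.ker, x * y = y * x) ∧ ∀ x ∈ φ.ker, x * x = 1 := by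
  have key : ∀ n : ℕ, IH X n := by
    intro n
    induction n with
    | zero => intro G _ _ h; exact absurd h (Nat.not_lt_zero _)
    | succ n hn =>
      intro G _ _ h φ hφ hQ hfpf
      rcases Nat.lt_succ_iff_lt_or_eq.1 h with h1 | h1
      · exact hn h1 φ hφ hQ hfpf
      · subst h1
        exact step hbil hexp hsplit hn φ hφ hQ hfpf
  exact step hbil hexp hsplit (key _) φ hφ hQ hfpf

end Cfsg.Agent.H46.MtP10
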