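import Mathlib.GroupTheory.Perm.Sign
import Cfsg.Agent.H46.Involves

/-! Involving the symmetric group of degree 4. -/

set_option autoImplicit false

namespace Cfsg.Agent.H46

open Cfsg Equiv

/-- A subgroup of `S₄` with the three adjacent transpositions is everything. -/
theorem perm4_top (H : Subgroup (Perm (Fin 4))) (h0 : swap 0 1 ∈ H) (h1 : swap 1 2 ∈ H) (h2 : swap 2 3 ∈ H) :
    H = ⊤ := by
  rw [eq_top_iff]
  intro g _
  have hg : g ∈ Submonoid.closure (Set.range fun i : Fin 3 ↦ swap i.castSucc i.succ) := by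
    rw [Equiv.Perm.mclosure_swap_castSucc_succ 3]; trivial
  have hle : Submonoid.closure (Set.range fun i : Fin 3 ↦ swap i.castSucc i.succ) ≤ H.toSubmonoid := by
    rw [Submonoid.closure_le]
    rintro _ ⟨i, rfl⟩
    fin_cases i
    · exact h0
    · exact h1
    · exact h2
  exact hle hg

/-- A `p`-element acting on a subgroup of order divisible by `p` has a nontrivial fixed point. -/
theorem exists_fixed_elt {E : Type*} [Group E] [Finite E] {p : ℕ} [Fact p.Prime] {W : Subgroup E}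
    (hW : p ∣ Nat.card W) {x : E} (hx : ∃ k, x ^ p ^ k = 1) (hxW : x ∈ Subgroup.normalizer (W : Set E)) :
    ∃ v ∈ W, v ≠ 1 ∧ x * v * x⁻¹ = v := by
  obtain ⟨k, hk⟩ := hx
  have hp : IsPGroup p (Subgroup.zpowers x) := by
    have h1 : orderOf x ∣ p ^ k := orderOf_dvd_of_pow_eq_one hk
    obtain ⟨m, _, hm⟩ := (Nat.dvd_prime_pow Fact.out).1 h1
    exact IsPGroup.of_card (n := m) (by rw [Nat.card_zpowers, hm])
  let φ : Subgroup.zpowers x →* MulAut W :=
    (Subgroup.normalizerMonoidHom W).comp (Subgroup.inclusion (Subgroup.zpowers_le.2 hxW))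
  let _ : MulAction (Subgroup.zpowers x) W := MulAction.compHom W φ
  have hsm : ∀ (g : Subgroup.zpowers x) (w : W), ((g • w : W) : E) = (g : E) * w * (g : E)⁻¹ := fun g w => rfl
  have h1 : (1 : W) ∈ MulAction.fixedPoints (Subgroup.zpowers x) W := by
    intro g
    apply Subtype.ext
    rw [hsm]; simp
  obtain ⟨b, hb, hb1⟩ := hp.exists_fixed_point_of_prime_dvd_card_of_fixed_point W hW h1
  refine ⟨b, b.2, fun h => hb1 (Subtype.ext h.symm), ?_⟩
  have h2 := congrArg Subtype.val (hb ⟨x, Subgroup.mem_zpowers x⟩)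
  rwa [hsm] at h2

/-- The coset construction of `S₄`. -/
theorem involves_perm4_of_coset {E : Type*} [Group E] [Finite E] {x y v v₁ v₂ : E}
    (L : Subgroup E) (hx : x ∈ L) (hy : y ∈ L) (h2 : v * v = 1) (h21 : v₁ * v₁ = 1) (hvv : v * v₁ = v₂) 
    (hcomm : v * v₁ = v₁ * v)
    (hyv : y * v * y⁻¹ = v₁) (hyv1 : y * v₁ * y⁻¹ = v₂) (hyv2 : y * v₂ * y⁻¹ = v)
    (hxv : x * v * x⁻¹ = v) (hxv1 : x * v₁ * x⁻¹ = v₂) (hxv2 : x * v₂ * x⁻¹ = v₁)
    (hvL : v ∉ L) : Involves (Perm (Fin 4)) E := by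
  classical
  have hv1L : v₁ ∉ L := by
    intro h
    apply hvL
    have : v = y⁻¹ * v₁ * y := by rw [← hyv]; group
    rw [this]; exact L.mul_mem (L.mul_mem (L.inv_mem hy) h) hy
  have hv2L : v₂ ∉ L := by
    intro h
    apply hv1L
    have : v₁ = y⁻¹ * v₂ * y := by rw [← hyv1]; group
    rw [this]; exact L.mul_mem (L.mul_mem (L.inv_mem hy) h) hy
  set K : Subgroup E := Subgroup.closure {x, y, v} with hK
  have hxK : x ∈ K := Subgroup.subset_closure (by simp)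
  have hyK : y ∈ K := Subgroup.subset_closure (by simp)
  have hvK : v ∈ K := Subgroup.subset_closure (by simp)
  have hv1K : v₁ ∈ K := by rw [← hyv]; exact K.mul_mem (K.mul_mem hyK hvK) (K.inv_mem hyK)
  have hv2K : v₂ ∈ K := by rw [← hvv]; exact K.mul_mem hvK hv1K
  set L' : Subgroup K := L.subgroupOf K with hL'
  let e : Fin 4 → K ⧸ L' := ![QuotientGroup.mk 1, QuotientGroup.mk ⟨v, hvK⟩, QuotientGroup.mk ⟨v₁, hv1K⟩,
    QuotientGroup.mk ⟨v₂, hv2K⟩]
  -- action of elements of `L`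
  have hact : ∀ (g a : K), g ∈ L' → g • (QuotientGroup.mk a : K ⧸ L') = QuotientGroup.mk (g * a * g⁻¹) := by
    intro g a hg
    show (QuotientGroup.mk (g * a) : K ⧸ L') = _
    rw [QuotientGroup.eq]
    have : (g * a)⁻¹ * (g * a * g⁻¹) = g⁻¹ := by group
    rw [this]; exact L'.inv_mem hg
  have hxL' : (⟨x, hxK⟩ : K) ∈ L' := hx
  have hyL' : (⟨y, hyK⟩ : K) ∈ L' := hy
  have e0 : e 0 = QuotientGroup.mk 1 := rfl
  have e1 : e 1 = QuotientGroup.mk ⟨v, hvK⟩ := rfl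
  have e2 : e 2 = QuotientGroup.mk ⟨v₁, hv1K⟩ := rfl
  have e3 : e 3 = QuotientGroup.mk ⟨v₂, hv2K⟩ := rfl
  have hxe0 : (⟨x, hxK⟩ : K) • e 0 = e 0 := by
    rw [e0, hact _ _ hxL']; congr 1; ext; simp
  have hxe1 : (⟨x, hxK⟩ : K) • e 1 = e 1 := by
    rw [e1, hact _ _ hxL']; congr 1; exact Subtype.ext hxv
  have hxe2 : (⟨x, hxK⟩ : K) • e 2 = e 3 := by
    rw [e2, e3, hact _ _ hxL']; congr 1; exact Subtype.ext hxv1
  have hxe3 : (⟨x, hxK⟩ : K) • e 3 = e 2 := by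
    rw [e2, e3, hact _ _ hxL']; congr 1; exact Subtype.ext hxv2
  have hye0 : (⟨y, hyK⟩ : K) • e 0 = e 0 := by
    rw [e0, hact _ _ hyL']; congr 1; ext; simp
  have hye1 : (⟨y, hyK⟩ : K) • e 1 = e 2 := by
    rw [e1, e2, hact _ _ hyL']; congr 1; exact Subtype.ext hyv
  have hye2 : (⟨y, hyK⟩ : K) • e 2 = e 3 := by
    rw [e2, e3, hact _ _ hyL']; congr 1; exact Subtype.ext hyv1
  have hye3 : (⟨y, hyK⟩ : K) • e 3 = e 1 := by
    rw [e3, e1, hact _ _ hyL']; congr 1; exact Subtype.ext hyv2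
  have hve0 : (⟨v, hvK⟩ : K) • e 0 = e 1 := by
    rw [e0, e1]
    show (QuotientGroup.mk (_ * _) : K ⧸ L') = _
    rw [mul_one]
  have hve1 : (⟨v, hvK⟩ : K) • e 1 = e 0 := by
    rw [e0, e1]
    show (QuotientGroup.mk (_ * _) : K ⧸ L') = _
    congr 1; exact Subtype.ext h2
  have hve2 : (⟨v, hvK⟩ : K) • e 2 = e 3 := by
    rw [e2, e3]
    show (QuotientGroup.mk (_ * _) : K ⧸ L') = _
    congr 1; exact Subtype.ext hvv
  have hve3 : (⟨v, hvK⟩ : K) • e 3 = e 2 := by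
    rw [e2, e3]
    show (QuotientGroup.mk (_ * _) : K ⧸ L') = _
    congr 1
    apply Subtype.ext
    show v * v₂ = v₁
    rw [← hvv, ← mul_assoc, h2, one_mul]
  -- injectivity
  have hne : ∀ a b : K, (a : E)⁻¹ * (b : E) ∉ L → (QuotientGroup.mk a : K ⧸ L') ≠ QuotientGroup.mk b := by
    intro a b hab h
    have h' : a⁻¹ * b ∈ L' := QuotientGroup.eq.1 h
    exact hab h'
  have hvi : v⁻¹ = v := inv_eq_of_mul_eq_one_left h2
  have hv1i : v₁⁻¹ = v₁ := inv_eq_of_mul_eq_one_left h21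
  have n01 : e 0 ≠ e 1 := by rw [e0, e1]; apply hne; simpa using hvL
  have n02 : e 0 ≠ e 2 := by rw [e0, e2]; apply hne; simpa using hv1L
  have n03 : e 0 ≠ e 3 := by rw [e0, e3]; apply hne; simpa using hv2L
  have n12 : e 1 ≠ e 2 := by
    rw [e1, e2]; apply hne
    show v⁻¹ * v₁ ∉ L
    rw [hvi, hvv]; exact hv2L
  have n13 : e 1 ≠ e 3 := by
    rw [e1, e3]; apply hne
    show v⁻¹ * v₂ ∉ L
    rw [hvi, ← hvv, ← mul_assoc, h2, one_mul]; exact hv1L
  have n23 : e 2 ≠ e 3 := by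
    rw [e2, e3]; apply hne
    show v₁⁻¹ * v₂ ∉ L
    rw [hv1i, ← hvv, hcomm, ← mul_assoc, h21, one_mul]; exact hvL
  have hinj : Function.Injective e := by
    intro i j hij
    fin_cases i <;> fin_cases j <;> first | rfl | (exfalso; first
      | exact n01 hij | exact n01 hij.symm | exact n02 hij | exact n02 hij.symm | exact n03 hij
      | exact n03 hij.symm | exact n12 hij | exact n12 hij.symm | exact n13 hij | exact n13 hij.symm
      | exact n23 hij | exact n23 hij.symm)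
  -- surjectivity
  have hsurj : Function.Surjective e := by
    have hstab : ∀ g : K, ∀ i, ∃ j, g • e i = e j := by
      have hfin : ∀ g : K, (∀ i, ∃ j, g • e i = e j) → ∀ i, ∃ j, g⁻¹ • e i = e j := by
        intro g hg
        choose f hf using hg
        have hfi : Function.Injective f := by
          intro i j hij
          have := hf i
          rw [hij, ← hf j] at this
          exact hinj (MulAction.injective g this)
        have hfs := Finite.injective_iff_surjective.1 hfi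
        intro i
        obtain ⟨j, rfl⟩ := hfs i
        exact ⟨j, by rw [← hf, inv_smul_smul]⟩
      rintro ⟨g, hg⟩
      induction hg using Subgroup.closure_induction with
      | mem g hg =>
        rcases hg with rfl | rfl | rfl
        · intro i
          fin_cases i
          exacts [⟨_, hxe0⟩, ⟨_, hxe1⟩, ⟨_, hxe2⟩, ⟨_, hxe3⟩]
        · intro i
          fin_cases i
          exacts [⟨_, hye0⟩, ⟨_, hye1⟩, ⟨_, hye2⟩, ⟨_, hye3⟩]
        · intro i
          fin_cases i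
          exacts [⟨_, hve0⟩, ⟨_, hve1⟩, ⟨_, hve2⟩, ⟨_, hve3⟩]
      | one => exact fun i => ⟨i, one_smul _ _⟩
      | mul a b ha hb iha ihb =>
        intro i
        obtain ⟨j, hj⟩ := ihb i
        obtain ⟨k, hk⟩ := iha j
        refine ⟨k, ?_⟩
        rw [← hk, ← hj, smul_smul]
        rfl
      | inv a ha iha => exact hfin ⟨a, ha⟩ iha
    intro q
    obtain ⟨g, rfl⟩ := QuotientGroup.mk_surjective q
    obtain ⟨j, hj⟩ := hstab g 0
    refine ⟨j, ?_⟩
    rw [← hj, e0]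
    show (QuotientGroup.mk (g * 1) : K ⧸ L') = _
    rw [mul_one]
  let E4 : Fin 4 ≃ K ⧸ L' := Equiv.ofBijective e ⟨hinj, hsurj⟩
  let f : K →* Perm (Fin 4) := (E4.symm.permCongrHom.toMonoidHom).comp (MulAction.toPermHom K (K ⧸ L'))
  have hf : ∀ (g : K) (i j : Fin 4), g • e i = e j → f g i = j := by
    intro g i j h
    show E4.symm (g • E4 i) = j
    rw [Equiv.symm_apply_eq]
    exact h
  have hfx : f ⟨x, hxK⟩ = swap 2 3 := by
    ext i : 1
    fin_cases i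
    · exact (hf _ _ _ hxe0).trans (by decide)
    · exact (hf _ _ _ hxe1).trans (by decide)
    · exact (hf _ _ _ hxe2).trans (by decide)
    · exact (hf _ _ _ hxe3).trans (by decide)
  have hfv : f ⟨v, hvK⟩ = swap 0 1 * swap 2 3 := by
    ext i : 1
    fin_cases i
    · exact (hf _ _ _ hve0).trans (by decide)
    · exact (hf _ _ _ hve1).trans (by decide)
    · exact (hf _ _ _ hve2).trans (by decide)
    · exact (hf _ _ _ hve3).trans (by decide)
  have hfy : f ⟨y, hyK⟩ = swap 1 2 * swap 2 3 := by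
    ext i : 1
    fin_cases i
    · exact (hf _ _ _ hye0).trans (by decide)
    · exact (hf _ _ _ hye1).trans (by decide)
    · exact (hf _ _ _ hye2).trans (by decide)
    · exact (hf _ _ _ hye3).trans (by decide)
  have hss : ∀ a b : Fin 4, swap a b * swap a b = 1 := fun a b => Equiv.swap_mul_self a b
  have hr : f.range = ⊤ := by
    apply perm4_top
    · refine ⟨⟨v, hvK⟩ * ⟨x, hxK⟩, ?_⟩
      rw [map_mul, hfx, hfv, mul_assoc, hss, mul_one]
    · refine ⟨⟨y, hyK⟩ * ⟨x, hxK⟩, ?_⟩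
      rw [map_mul, hfx, hfy, mul_assoc, hss, mul_one]
    · exact ⟨⟨x, hxK⟩, hfx⟩
  exact involves_iff.2 ⟨K, f, MonoidHom.range_eq_top.1 hr⟩

/-- Module-theoretic criterion for involving `S₄`. -/
theorem involves_perm4_of_module {E : Type*} [Group E] [Finite E] (M P : Subgroup E) [hMn : M.Normal]
    (hab : ∀ a ∈ M, ∀ b ∈ M, a * b = b * a) (h2 : ∀ a ∈ M, a * a = 1) {x y : E} (hx : ∃ k, x ^ 2 ^ k = 1)
    (hP : IsPGroup 3 P) (hy : y ∈ P) (hxP : x ∈ Subgroup.normalizer (P : Set E))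
    (hy3 : ∀ m ∈ M, y ^ 3 * m = m * y ^ 3) (hxy : ∀ m ∈ M, (x * y * x⁻¹ * y) * m = m * (x * y * x⁻¹ * y))
    (hne : ∃ m ∈ M, y * m * y⁻¹ ≠ m) : Involves (Perm (Fin 4)) E := by
  have : Fact (Nat.Prime 2) := ⟨Nat.prime_two⟩
  have hc : ∀ g : E, ∀ m ∈ M, g * m * g⁻¹ ∈ M := fun g m hm => hMn.conj_mem m hm g
  have hc' : ∀ g : E, ∀ m ∈ M, g⁻¹ * m * g ∈ M := fun g m hm => by
    have := hMn.conj_mem m hm g⁻¹
    rwa [inv_inv] at this
  -- y⁻¹ m y = y (y m y⁻¹) y⁻¹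
  have A2 : ∀ m ∈ M, y⁻¹ * m * y = y * (y * m * y⁻¹) * y⁻¹ := by
    intro m hm
    have h1 := hy3 m hm
    have h3 : y ^ 3 = y * y * y := by rw [pow_succ, pow_two]
    rw [h3] at h1
    have h4 : y * (y * m * y⁻¹) * y⁻¹ = y⁻¹ * (y * y * y * m) * (y * y)⁻¹ := by group
    rw [h4, h1]; group
  have A1 : ∀ m ∈ M, y * (x * m * x⁻¹) * y⁻¹ = x * (y⁻¹ * m * y) * x⁻¹ := by
    intro m hm
    have h1 := hxy (x * m * x⁻¹) (hc x m hm)
    -- y = x y⁻¹ x⁻¹ c
    have h3 : y * (x * m * x⁻¹) * y⁻¹ =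
        (x * y⁻¹ * x⁻¹) * ((x * y * x⁻¹ * y) * (x * m * x⁻¹)) * (x * y * x⁻¹ * y)⁻¹ * (x * y * x⁻¹) := by group
    rw [h3, h1]; group
  let W : Subgroup E :=
    { carrier := {m | m ∈ M ∧ m * (y * m * y⁻¹) * (y⁻¹ * m * y) = 1}
      one_mem' := ⟨M.one_mem, by group⟩
      mul_mem' := by
        rintro a b ⟨ha, ha1⟩ ⟨hb, hb1⟩
        refine ⟨M.mul_mem ha hb, ?_⟩
        have e1 : y * (a * b) * y⁻¹ = (y * a * y⁻¹) * (y * b * y⁻¹) := by group
        have e2 : y⁻¹ * (a * b) * y = (y⁻¹ * a * y) * (y⁻¹ * b * y) := by group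
        rw [e1, e2]
        have c1 := hab b hb (y * a * y⁻¹) (hc y a ha)
        have c2 := hab (b * (y * b * y⁻¹)) (M.mul_mem hb (hc y b hb)) (y⁻¹ * a * y) (hc' y a ha)
        calc a * b * (y * a * y⁻¹ * (y * b * y⁻¹)) * (y⁻¹ * a * y * (y⁻¹ * b * y))
            = a * (b * (y * a * y⁻¹)) * (y * b * y⁻¹) * (y⁻¹ * a * y) * (y⁻¹ * b * y) := by simp only [mul_assoc]
          _ = a * (y * a * y⁻¹) * (b * (y * b * y⁻¹) * (y⁻¹ * a * y)) * (y⁻¹ * b * y) := by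
              rw [c1]; simp only [mul_assoc]
          _ = (a * (y * a * y⁻¹) * (y⁻¹ * a * y)) * (b * (y * b * y⁻¹) * (y⁻¹ * b * y)) := by
              rw [c2]; simp only [mul_assoc]
          _ = 1 := by rw [ha1, hb1, one_mul]
      inv_mem' := by
        rintro a ⟨ha, ha1⟩
        have : a⁻¹ = a := inv_eq_of_mul_eq_one_left (h2 a ha)
        rw [this]
        exact ⟨ha, ha1⟩ }
  have hWM : ∀ w ∈ W, w ∈ M := fun w hw => hw.1
  have hWx : x ∈ Subgroup.normalizer (W : Set E) := by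
    apply Subgroup.mem_normalizer_fintype
    rintro w ⟨hw, hw1⟩
    refine ⟨hc x w hw, ?_⟩
    have e1 := A1 w hw
    have e2 : y⁻¹ * (x * w * x⁻¹) * y = x * (y * w * y⁻¹) * x⁻¹ := by
      rw [A2 _ (hc x w hw), A1 w hw, A1 _ (hc' y w hw)]
      have h3 := A2 _ (hc' y w hw)
      have h4 : y * (y * (y⁻¹ * w * y) * y⁻¹) * y⁻¹ = y * w * y⁻¹ := by group
      rw [h3, h4]
    rw [e1, e2]
    have c1 := hab (y * w * y⁻¹) (hc y w hw) (y⁻¹ * w * y) (hc' y w hw)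
    calc x * w * x⁻¹ * (x * (y⁻¹ * w * y) * x⁻¹) * (x * (y * w * y⁻¹) * x⁻¹)
        = x * (w * ((y⁻¹ * w * y) * (y * w * y⁻¹))) * x⁻¹ := by group
      _ = x * (w * (y * w * y⁻¹) * (y⁻¹ * w * y)) * x⁻¹ := by rw [← c1]; simp only [mul_assoc]
      _ = 1 := by rw [hw1]; group
  have hWe : 2 ∣ Nat.card W := by
    obtain ⟨m, hm, hmy⟩ := hne
    have hw : m * (y * m * y⁻¹) ∈ W := by
      refine ⟨M.mul_mem hm (hc y m hm), ?_⟩
      have h3 := A2 m hm
      have e1 : y * (m * (y * m * y⁻¹)) * y⁻¹ = (y * m * y⁻¹) * (y⁻¹ * m * y) := by rw [h3]; group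
      have e2 : y⁻¹ * (m * (y * m * y⁻¹)) * y = (y⁻¹ * m * y) * m := by group
      rw [e1, e2]
      have s1 := h2 _ (hc y m hm)
      have s2 := h2 _ (hc' y m hm)
      calc m * (y * m * y⁻¹) * ((y * m * y⁻¹) * (y⁻¹ * m * y)) * ((y⁻¹ * m * y) * m)
          = m * ((y * m * y⁻¹) * (y * m * y⁻¹)) * ((y⁻¹ * m * y) * (y⁻¹ * m * y)) * m := by
            simp only [mul_assoc]
        _ = 1 := by rw [s1, s2, mul_one, mul_one, h2 m hm]
    have hw1 : m * (y * m * y⁻¹) ≠ 1 := by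
      intro h
      apply hmy
      have hmi : m⁻¹ = m := inv_eq_of_mul_eq_one_left (h2 m hm)
      exact (eq_inv_of_mul_eq_one_right h).trans hmi
    have ho : orderOf (⟨_, hw⟩ : W) = 2 := by
      apply orderOf_eq_prime
      · rw [pow_two]
        exact Subtype.ext (h2 _ (hWM _ hw))
      · intro h
        exact hw1 (congrArg Subtype.val h)
    rw [← ho]
    exact orderOf_dvd_natCard _
  obtain ⟨v, ⟨hvM, hvW⟩, hv1, hxv⟩ := exists_fixed_elt hWe hx hWx
  set v₁ := y * v * y⁻¹ with hv₁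
  set v₂ := y⁻¹ * v * y with hv₂
  have hv1M : v₁ ∈ M := hc y v hvM
  have hv2M : v₂ ∈ M := hc' y v hvM
  have hvi : v⁻¹ = v := inv_eq_of_mul_eq_one_left (h2 v hvM)
  have hv2i : v₂⁻¹ = v₂ := inv_eq_of_mul_eq_one_left (h2 v₂ hv2M)
  have hvv : v * v₁ = v₂ := by rw [← hv2i]; exact eq_inv_of_mul_eq_one_left hvW
  have hyv1 : y * v₁ * y⁻¹ = v₂ := (A2 v hvM).symm
  have hyv2 : y * v₂ * y⁻¹ = v := by rw [hv₂]; group
  have hxv2 : x * v₂ * x⁻¹ = v₁ := by
    have := A1 v hvM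
    rw [hxv] at this
    exact this.symm
  have hxv1 : x * v₁ * x⁻¹ = v₂ := by
    have h3 : v₁ = v * v₂ := by rw [← hvv, ← mul_assoc, h2 v hvM, one_mul]
    have h4 : x * v₁ * x⁻¹ = (x * v * x⁻¹) * (x * v₂ * x⁻¹) := by rw [h3]; group
    rw [h4, hxv, hxv2, hvv]
  have hne1 : v₁ ≠ v := by
    intro h
    rw [h] at hvv
    rw [h2 v hvM] at hvv
    rw [← hvv] at hyv2
    apply hv1
    rw [← hyv2]; group
  refine involves_perm4_of_coset (Subgroup.closure {x, y}) (Subgroup.subset_closure (by simp))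
    (Subgroup.subset_closure (by simp)) (h2 v hvM) (h2 v₁ hv1M) hvv (hab v hvM v₁ hv1M) rfl hyv1 hyv2 hxv hxv1 hxv2 ?_
  intro hvL
  have hLN : Subgroup.closure {x, y} ≤ Subgroup.normalizer (P : Set E) := by
    rw [Subgroup.closure_le]
    rintro g (rfl | rfl)
    · exact hxP
    · exact Subgroup.le_normalizer hy
  have hvN := hLN hvL
  have h5 : v * y⁻¹ * v⁻¹ ∈ P := (Subgroup.mem_normalizer_iff.1 hvN _).1 (P.inv_mem hy)
  have h6 : y * v * y⁻¹ * v⁻¹ ∈ P := by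
    have : y * v * y⁻¹ * v⁻¹ = y * (v * y⁻¹ * v⁻¹) := by group
    rw [this]; exact P.mul_mem hy h5
  have h7 : y * v * y⁻¹ * v⁻¹ ∈ M := M.mul_mem hv1M (M.inv_mem hvM)
  apply hne1
  have h8 : (y * v * y⁻¹ * v⁻¹) * (y * v * y⁻¹ * v⁻¹) = 1 := h2 _ h7
  obtain ⟨k, hk⟩ := hP ⟨_, h6⟩
  have hk' : (y * v * y⁻¹ * v⁻¹) ^ 3 ^ k = 1 := congrArg Subtype.val hk
  have h9 : orderOf (y * v * y⁻¹ * v⁻¹) ∣ 2 := orderOf_dvd_of_pow_eq_one (by rw [pow_two]; exact h8)
  have h10 : orderOf (y * v * y⁻¹ * v⁻¹) ∣ 3 ^ k := orderOf_dvd_of_pow_eq_one hk'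
  have h11 : Nat.Coprime 2 (3 ^ k) := Nat.Coprime.pow_right k (by norm_num)
  have h12 := Nat.eq_one_of_dvd_coprimes h11 h9 h10
  exact mul_inv_eq_one.1 (orderOf_eq_one_iff.1 h12)

end Cfsg.Agent.H46
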